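import Mathlib.GroupTheory.Perm.Cycle.Concrete
import Mathlib.GroupTheory.Perm.Cycle.Type
import Mathlib.GroupTheory.SpecificGroups.Alternating

/-!
Every even permutation `σ ≠ 1` on at least five points has the form `a g a⁻¹ g⁻¹` with `a`, `g` even and `a`
interchanging two disjoint pairs of points.
-/

set_option autoImplicit false
set_option maxHeartbeats 2000000

namespace CfsgLib.AltDoubleCover

open Equiv

variable {α : Type*} [DecidableEq α] [Fintype α]

/-- `σ = a g a⁻¹ g⁻¹` with `a`, `g` even, `a` interchanging two disjoint pairs. -/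
def Good (σ : Perm α) : Prop :=
  ∃ a g : Perm α, Perm.sign a = 1 ∧ Perm.sign g = 1 ∧ σ = a * g * a⁻¹ * g⁻¹ ∧
    ∃ p q r s : α, p ≠ q ∧ p ≠ r ∧ p ≠ s ∧ q ≠ r ∧ q ≠ s ∧ r ≠ s ∧ a p = q ∧ a q = p ∧ a r = s ∧ a s = r

theorem Good.conj {σ : Perm α} (h : Good σ) (c : Perm α) : Good (c * σ * c⁻¹) := by
  obtain ⟨a, g, ha, hg, rfl, p, q, r, s, h1, h2, h3, h4, h5, h6, e1, e2, e3, e4⟩ := h
  refine ⟨c * a * c⁻¹, c * g * c⁻¹, ?_, ?_, by group, c p, c q, c r, c s, ?_⟩
  · rw [map_mul, map_mul, ha, mul_one, map_inv, mul_inv_cancel]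
  · rw [map_mul, map_mul, hg, mul_one, map_inv, mul_inv_cancel]
  · simp [Perm.mul_apply, h1, h2, h3, h4, h5, h6, e1, e2, e3, e4]

theorem Good.of_cycleType {σ τ : Perm α} (h : Good σ) (ht : σ.cycleType = τ.cycleType) : Good τ := by
  obtain ⟨c, hc⟩ := isConj_iff.1 (Perm.isConj_iff_cycleType_eq.2 ht)
  exact hc ▸ h.conj c

/-- an involution moving `2 i` points of `S` and nothing else -/
def Inv2 (X : Perm α) (S : Finset α) (i : ℕ) : Prop :=
  X * X = 1 ∧ X.support ⊆ S ∧ X.support.card = 2 * i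

theorem Inv2.inv_eq {X : Perm α} {S i} (h : Inv2 X S i) : X⁻¹ = X := inv_eq_of_mul_eq_one_right h.1

theorem Inv2.apply_apply {X : Perm α} {S i} (h : Inv2 X S i) (x : α) : X (X x) = x := by
  rw [← Perm.mul_apply, h.1, Perm.one_apply]

theorem Inv2.apply_mem {X : Perm α} {S i} (h : Inv2 X S i) {x : α} (hx : x ∈ S) : X x ∈ S := by
  by_cases e : X x = x
  · rwa [e]
  · exact h.2.1 (Perm.apply_mem_support.2 (Perm.mem_support.2 e))

theorem inv2_one (S : Finset α) : Inv2 (1 : Perm α) S 0 := ⟨one_mul 1, by simp, by simp⟩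

theorem eq_of_not_mem {X : Perm α} {S : Finset α} (h : X.support ⊆ S) {x : α} (hx : x ∉ S) : X x = x :=
  Perm.notMem_support.1 fun h' => hx (h h')

theorem Inv2.cycleType {X : Perm α} {S i} (h : Inv2 X S i) : X.cycleType = Multiset.replicate i 2 := by
  have hall : ∀ n ∈ X.cycleType, n = 2 := fun n hn =>
    le_antisymm (Nat.le_of_dvd two_pos ((Perm.dvd_of_mem_cycleType hn).trans
      (orderOf_dvd_of_pow_eq_one (by rw [pow_two]; exact h.1)))) (Perm.two_le_of_mem_cycleType hn)
  have h' := Multiset.eq_replicate_card.2 hall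
  have hs := Perm.sum_cycleType X
  rw [h', Multiset.sum_replicate, smul_eq_mul, h.2.2] at hs
  rw [h']
  congr 1
  omega

theorem Inv2.mul {X X' : Perm α} {S S' i i'} (h : Inv2 X S i) (h' : Inv2 X' S' i') (hd : Disjoint S S') :
    Inv2 (X * X') (S ∪ S') (i + i') := by
  have hdis : Perm.Disjoint X X' := Perm.disjoint_iff_disjoint_support.2 (hd.mono h.2.1 h'.2.1)
  refine ⟨?_, ?_, ?_⟩
  · rw [mul_assoc, ← mul_assoc X' X, ← hdis.commute.eq, mul_assoc X, h'.1, mul_one, h.1]
  · rw [hdis.support_mul]; exact Finset.union_subset_union h.2.1 h'.2.1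
  · rw [hdis.card_support_mul, h.2.2, h'.2.2, mul_add]

theorem inv2_swap {a b : α} (hab : a ≠ b) : Inv2 (swap a b) {a, b} 1 :=
  ⟨swap_mul_self a b, (Perm.support_swap hab).le, by rw [Perm.support_swap hab, Finset.card_pair hab]⟩

theorem Inv2.conj {X Y : Perm α} {S i j} (h : Inv2 X S i) (hY : Inv2 Y S j) : Inv2 (Y * X * Y) S i := by
  have hsup : (Y * X * Y).support = X.support.map Y.toEmbedding := by
    conv_lhs => arg 1; rhs; rw [← hY.inv_eq]
    exact Perm.support_conj
  refine ⟨?_, ?_, ?_⟩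
  · rw [show Y * X * Y * (Y * X * Y) = Y * (X * (Y * Y) * X) * Y by simp only [mul_assoc], hY.1, mul_one,
      h.1, mul_one, hY.1]
  · rw [hsup]
    intro x hx
    obtain ⟨y, hy, rfl⟩ := Finset.mem_map.1 hx
    exact hY.apply_mem (h.2.1 hy)
  · rw [hsup, Finset.card_map, h.2.2]

/-- a product of two such involutions -/
def Dec (σ : Perm α) (S : Finset α) (i j : ℕ) : Prop :=
  ∃ X Y, Inv2 X S i ∧ Inv2 Y S j ∧ σ = X * Y

theorem Dec.flip {σ : Perm α} {S i j} (h : Dec σ S i j) : Dec σ S j i := by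
  obtain ⟨X, Y, hX, hY, rfl⟩ := h
  exact ⟨Y, Y * X * Y, hY, hX.conj hY, by rw [← mul_assoc, ← mul_assoc, hY.1, one_mul]⟩

theorem Dec.mul {σ σ' : Perm α} {S S' i j i' j'} (h : Dec σ S i j) (h' : Dec σ' S' i' j')
    (hd : Disjoint S S') : Dec (σ * σ') (S ∪ S') (i + i') (j + j') := by
  obtain ⟨X, Y, hX, hY, rfl⟩ := h
  obtain ⟨X', Y', hX', hY', rfl⟩ := h'
  refine ⟨_, _, hX.mul hX' hd, hY.mul hY' hd, ?_⟩
  have hc : Commute Y X' := (Perm.disjoint_iff_disjoint_support.2 (hd.mono hY.2.1 hX'.2.1)).commute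
  rw [mul_assoc, ← mul_assoc Y, hc.eq]
  simp only [mul_assoc]

theorem zig : ∀ (h : α) (t : List α), (h :: t).Nodup → ∃ X Y i j,
    Inv2 X (h :: t).toFinset i ∧ Inv2 Y (h :: t).toFinset j ∧ (h :: t).formPerm = X * Y ∧ Y h = h ∧
      t.length = i + j ∧ (i = j ∨ i = j + 1)
  | h, [], _ => ⟨1, 1, 0, 0, inv2_one _, inv2_one _, by simp, rfl, by simp, Or.inl rfl⟩
  | h, b :: r, hn => by
    have hn' := List.nodup_cons.1 hn
    obtain ⟨X, Y, i, j, hX, hY, hf, hb, hlen, hij⟩ := zig b r hn'.2
    have hh : h ∉ (b :: r).toFinset := by simpa using hn'.1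
    have hbh : h ≠ b := fun e => hn'.1 (e ▸ List.mem_cons_self)
    have hsub : (b :: r).toFinset ⊆ (h :: b :: r).toFinset := fun x hx => by simp_all
    have hd : Perm.Disjoint (swap h b) Y := by
      rw [Perm.disjoint_iff_disjoint_support, Perm.support_swap hbh, Finset.disjoint_left]
      intro x hx hxY
      rcases Finset.mem_insert.1 hx with rfl | hx
      · exact hh (hY.2.1 hxY)
      · exact Perm.mem_support.1 hxY (Finset.mem_singleton.1 hx ▸ hb)
    have hc := hX.conj hY
    refine ⟨swap h b * Y, Y * X * Y, j + 1, i, ⟨?_, ?_, ?_⟩, ⟨hc.1, hc.2.1.trans hsub, hc.2.2⟩, ?_,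
      eq_of_not_mem hc.2.1 hh, ?_, ?_⟩
    · rw [mul_assoc, ← mul_assoc Y, ← hd.commute.eq, mul_assoc, hY.1, mul_one, swap_mul_self]
    · rw [hd.support_mul, Perm.support_swap hbh]
      refine Finset.union_subset ?_ (hY.2.1.trans hsub)
      intro x hx
      rcases Finset.mem_insert.1 hx with rfl | hx
      · simp
      · simp [Finset.mem_singleton.1 hx]
    · rw [hd.card_support_mul, Perm.support_swap hbh, Finset.card_pair hbh, hY.2.2]; ring
    · rw [List.formPerm_cons_cons, hf]
      simp only [mul_assoc]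
      rw [← mul_assoc Y Y, hY.1, one_mul]
    · simp only [List.length_cons] at hlen ⊢; omega
    · rcases hij with rfl | rfl
      · exact Or.inr rfl
      · exact Or.inl rfl

theorem exists_list {c : Perm α} (hc : c.IsCycle) :
    ∃ h t, (h :: t).Nodup ∧ (h :: t).formPerm = c ∧ (h :: t).toFinset = c.support ∧ t.length + 1 = c.support.card := by
  obtain ⟨x, hx⟩ := Finset.card_pos.1 (Nat.lt_of_lt_of_le two_pos hc.two_le_card_support)
  have hn := Perm.nodup_toList c x
  have hf : (Perm.toList c x).formPerm = c := by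
    rw [Perm.formPerm_toList, hc.cycleOf_eq (Perm.mem_support.1 hx)]
  have hl : (Perm.toList c x).length = c.support.card := by
    rw [Perm.length_toList, hc.cycleOf_eq (Perm.mem_support.1 hx)]
  match hm : Perm.toList c x with
  | [] =>
    rw [hm] at hl
    have := hc.two_le_card_support
    simp only [List.length_nil] at hl
    omega
  | h :: t =>
    rw [hm] at hn hf hl
    refine ⟨h, t, hn, hf, ?_, by simpa using hl⟩
    rw [← hf, List.support_formPerm_of_nodup _ hn]
    intro y e
    have := hc.two_le_card_support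
    rw [e] at hl
    simp at hl
    omega

theorem exists_dec (σ : Perm α) : ∃ i j, Dec σ σ.support i j ∧ (i = j ∨ i = j + 1) := by
  induction σ using Perm.cycle_induction_on with
  | base_one => exact ⟨0, 0, ⟨1, 1, inv2_one _, inv2_one _, (one_mul 1).symm⟩, Or.inl rfl⟩
  | base_cycles c hc =>
    obtain ⟨h, t, hn, hf, hs, -⟩ := exists_list hc
    obtain ⟨X, Y, i, j, hX, hY, hXY, -, -, hij⟩ := zig h t hn
    exact ⟨i, j, ⟨X, Y, hs ▸ hX, hs ▸ hY, hf ▸ hXY⟩, hij⟩
  | induction_disjoint σ τ hd _ h1 h2 =>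
    obtain ⟨i, j, h1, hij⟩ := h1
    obtain ⟨i', j', h2, hij'⟩ := h2
    have hd' := Perm.disjoint_iff_disjoint_support.1 hd
    rw [hd.support_mul]
    rcases hij with rfl | rfl
    · exact ⟨i + i', i + j', h1.mul h2 hd', by omega⟩
    · rcases hij' with rfl | rfl
      · exact ⟨j + 1 + i', j + i', h1.mul h2 hd', by omega⟩
      · exact ⟨j + 1 + j', j + (j' + 1), h1.mul h2.flip hd', by omega⟩

theorem sign_of_inv2 {X : Perm α} {S i} (h : Inv2 X S i) : Perm.sign X = (-1) ^ i := by
  rw [Perm.sign_of_cycleType, h.cycleType, Multiset.sum_replicate, Multiset.card_replicate, smul_eq_mul,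
    show i * 2 + i = 2 * i + i by ring, pow_add, pow_mul]
  simp

theorem balanced {σ : Perm α} (h : Perm.sign σ = 1) : ∃ i, Dec σ σ.support i i := by
  obtain ⟨i, j, hd, rfl | rfl⟩ := exists_dec σ
  · exact ⟨i, hd⟩
  · obtain ⟨X, Y, hX, hY, e⟩ := hd
    rw [e, map_mul, sign_of_inv2 hX, sign_of_inv2 hY, ← pow_add,
      show j + 1 + j = 2 * j + 1 by ring, pow_succ, pow_mul] at h
    simp at h

/-- two conjugate permutations, the first interchanging two pairs -/
theorem good_of_pattern {X a b : Perm α} {S i} (hX : Inv2 X S i) (hi : 2 ≤ i)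
    (ha : ∀ x ∈ X.support, a x = X x) (hsa : Perm.sign a = 1) (hct : a.cycleType = b.cycleType) :
    Good (a * b) := by
  obtain ⟨p, hp⟩ : X.support.Nonempty := Finset.card_pos.1 (by rw [hX.2.2]; omega)
  have hq : X p ∈ X.support := Perm.apply_mem_support.2 hp
  obtain ⟨r, hr, hr'⟩ := Finset.exists_mem_notMem_of_card_lt_card (s := {p, X p}) (t := X.support)
    (by rw [hX.2.2]; have := Finset.card_le_two (a := p) (b := X p); omega)
  have hpq : p ≠ X p := (Perm.mem_support.1 hp).symm
  have hpr : p ≠ r := fun e => hr' (by simp [e])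
  have hqr : X p ≠ r := fun e => hr' (by simp [e])
  have hrs : r ≠ X r := (Perm.mem_support.1 hr).symm
  have hps : p ≠ X r := fun e => hqr (by rw [e, hX.apply_apply])
  have hqs : X p ≠ X r := fun e => hpr (X.injective e)
  have e1 : a p = X p := ha p hp
  have e2 : a (X p) = p := by rw [ha _ hq, hX.apply_apply]
  obtain ⟨g, hg⟩ : ∃ g : Perm α, g * a⁻¹ * g⁻¹ = b :=
    isConj_iff.1 (Perm.isConj_iff_cycleType_eq.2 (by rw [Perm.cycleType_inv, hct]))
  obtain ⟨g', hg1, hg'⟩ : ∃ g' : Perm α, Perm.sign g' = 1 ∧ g' * a⁻¹ * g'⁻¹ = b := by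
    rcases Int.units_eq_one_or (Perm.sign g) with h | h
    · exact ⟨g, h, hg⟩
    refine ⟨g * swap p (X p), by rw [map_mul, h, Perm.sign_swap hpq]; rfl, ?_⟩
    have hc : swap p (X p) * a⁻¹ = a⁻¹ * swap p (X p) := by
      have := Equiv.swap_apply_apply a p (X p)
      rw [e1, e2, swap_comm] at this
      conv_rhs => rw [this]
      group
    rw [mul_inv_rev, swap_inv, mul_assoc g, hc, mul_assoc g, mul_assoc a⁻¹, ← mul_assoc g]
    rw [← mul_assoc (swap p (X p)), swap_mul_self, one_mul, hg]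
  refine ⟨a, g', hsa, hg1, by rw [← hg']; simp only [mul_assoc], p, X p, r, X r, hpq, hpr, hps, hqr, hqs,
    hrs, e1, e2, ha r hr, ?_⟩
  rw [ha _ (Perm.apply_mem_support.2 hr), hX.apply_apply]

theorem good_even {σ : Perm α} {S i} (h : Dec σ S i i) (hi : 2 ≤ i) (he : Even i) : Good σ := by
  obtain ⟨X, Y, hX, hY, rfl⟩ := h
  exact good_of_pattern hX hi (fun _ _ => rfl) (by rw [sign_of_inv2 hX, he.neg_one_pow])
    (by rw [hX.cycleType, hY.cycleType])

/-- the gadget on two new points -/
theorem good_step {X Y : Perm α} {S i} (hX : Inv2 X S i) (hY : Inv2 Y S i) (hi : 2 ≤ i) (he : Even i)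
    {p q u v : α} (hp : Y p = p) (hq : X q = q) (hpS : p ∈ S) (hqS : q ∈ S) (hu : u ∉ S) (hv : v ∉ S)
    (huv : u ≠ v) : Good (X * Y * (swap (Y q) u * swap p v)) := by
  have hqu : q ≠ u := fun e => hu (e ▸ hqS)
  have hqv : q ≠ v := fun e => hv (e ▸ hqS)
  have hpu : p ≠ u := fun e => hu (e ▸ hpS)
  have hpv : p ≠ v := fun e => hv (e ▸ hpS)
  have three : ∀ w, w ≠ u → w ≠ v → (swap w u * swap u v).IsThreeCycle := fun w h1 h2 => by
    rw [swap_comm w u]
    exact Perm.isThreeCycle_swap_mul_swap_same h1.symm huv h2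
  have hR : ∀ (Z : Perm α) (w : α), Z.support ⊆ S → Z w = w → Perm.Disjoint Z (swap w u * swap u v) := by
    intro Z w hZ hw x
    by_cases h : x = w ∨ x = u ∨ x = v
    · rcases h with rfl | rfl | rfl
      · exact Or.inl hw
      · exact Or.inl (eq_of_not_mem hZ hu)
      · exact Or.inl (eq_of_not_mem hZ hv)
    · push Not at h
      exact Or.inr (by rw [Perm.mul_apply, swap_apply_of_ne_of_ne h.2.1 h.2.2, swap_apply_of_ne_of_ne h.1 h.2.1])
  have dX := hR X q hX.2.1 hq
  have dY := hR Y p hY.2.1 hp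
  have key : X * Y * (swap (Y q) u * swap p v) =
      (X * (swap q u * swap u v)) * (Y * (swap p u * swap u v)) := by
    have h1 := Equiv.swap_apply_apply Y q u
    have h2 := Equiv.swap_apply_apply Y u v
    rw [eq_of_not_mem hY.2.1 hu, hY.inv_eq] at h1
    rw [eq_of_not_mem hY.2.1 hu, eq_of_not_mem hY.2.1 hv, hY.inv_eq] at h2
    have h3 : swap p v = swap u v * (swap p u * swap u v) := by
      have h := Equiv.swap_apply_apply (swap u v) p u
      rw [swap_apply_left, swap_apply_of_ne_of_ne hpu hpv, swap_inv, mul_assoc] at h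
      exact h
    rw [h3, ← mul_assoc (swap (Y q) u)]
    conv_lhs => enter [2, 1]; rw [h1, h2]
    simp only [mul_assoc]
    rw [← mul_assoc Y Y, hY.1, one_mul, ← mul_assoc Y Y, hY.1, one_mul]
  rw [key]
  refine good_of_pattern hX hi (fun x hx => ?_) ?_ ?_
  · rw [Perm.mul_apply, (dX x).resolve_left (Perm.mem_support.1 hx)]
  · rw [map_mul, sign_of_inv2 hX, he.neg_one_pow, one_mul, (three q hqu hqv).sign]
  · rw [dX.cycleType_mul, dY.cycleType_mul, hX.cycleType, hY.cycleType, (three q hqu hqv).cycleType,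
      (three p hpu hpv).cycleType]

theorem rotate_to {l : List α} (hn : l.Nodup) {h : α} (hh : h ∈ l) :
    ∃ t, (h :: t).Nodup ∧ (h :: t).toFinset = l.toFinset ∧ (h :: t).formPerm = l.formPerm ∧
      t.length + 1 = l.length := by
  obtain ⟨a, b, rfl⟩ := List.append_of_mem hh
  have hp : (h :: (b ++ a)).Perm (a ++ h :: b) := by
    rw [show h :: (b ++ a) = (h :: b) ++ a from rfl]; exact List.perm_append_comm
  exact ⟨b ++ a, hp.nodup_iff.2 hn, List.toFinset_eq_of_perm _ _ hp,
    (List.formPerm_eq_of_isRotated hn (List.isRotated_append (l := a) (l' := h :: b))).symm,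
    by simp [List.length_append]; omega⟩

theorem insert_point {l : List α} (hn : l.Nodup) {p v : α} (hp : p ∈ l) (hv : v ∉ l) :
    ∃ l' : List α, l'.Nodup ∧ l'.length = l.length + 1 ∧ l'.toFinset = insert v l.toFinset ∧
      l'.formPerm = l.formPerm * swap p v := by
  obtain ⟨t, hn', hs, hf, hl⟩ := rotate_to hn (List.formPerm_apply_mem_of_mem hp)
  have hv' : v ∉ (l.formPerm p :: t) := fun h => hv (List.mem_toFinset.1 (hs ▸ List.mem_toFinset.2 h))
  refine ⟨v :: l.formPerm p :: t, List.nodup_cons.2 ⟨hv', hn'⟩, by simp [← hl], ?_, ?_⟩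
  · rw [List.toFinset_cons, hs]
  · rw [List.formPerm_cons_cons, hf]
    have h := Equiv.swap_apply_apply l.formPerm p v
    rw [List.formPerm_apply_of_notMem hv, swap_comm] at h
    rw [h]; group

theorem cycleType_list {l : List α} (hn : l.Nodup) (h2 : 2 ≤ l.length) :
    l.formPerm.cycleType = {l.length} ∧ l.formPerm.support = l.toFinset := by
  have hne : ∀ x : α, l ≠ [x] := fun x e => by rw [e] at h2; simp at h2
  refine ⟨?_, List.support_formPerm_of_nodup l hn hne⟩
  rw [(List.isCycle_formPerm hn h2).cycleType, List.support_formPerm_of_nodup l hn hne,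
    List.toFinset_card_of_nodup hn]

theorem eq_one_of_dec_zero {σ : Perm α} {S} (h : Dec σ S 0 0) : σ = 1 := by
  obtain ⟨X, Y, hX, hY, rfl⟩ := h
  have hX1 : X = 1 := Perm.support_eq_empty_iff.1 (Finset.card_eq_zero.1 hX.2.2)
  have hY1 : Y = 1 := Perm.support_eq_empty_iff.1 (Finset.card_eq_zero.1 hY.2.2)
  rw [hX1, hY1, one_mul]

theorem good_threeCycle (h5 : 5 ≤ Fintype.card α) {c : Perm α} (hc : c.IsThreeCycle) : Good c := by
  obtain ⟨a, ha⟩ := Finset.card_pos.1 (by rw [hc.card_support]; norm_num : 0 < c.support.card)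
  obtain ⟨b, hb, hb'⟩ := Finset.exists_mem_notMem_of_card_lt_card (s := {a}) (t := c.support)
    (by rw [hc.card_support]; simp)
  obtain ⟨d, hd, hd'⟩ := Finset.exists_mem_notMem_of_card_lt_card (s := {a, b}) (t := c.support)
    (by rw [hc.card_support]; have := Finset.card_le_two (a := a) (b := b); omega)
  obtain ⟨e, -, he⟩ := Finset.exists_mem_notMem_of_card_lt_card (s := c.support) (t := Finset.univ)
    (by rw [hc.card_support, Finset.card_univ]; omega)
  obtain ⟨f, -, hf⟩ := Finset.exists_mem_notMem_of_card_lt_card (s := insert e c.support) (t := Finset.univ)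
    (by rw [Finset.card_insert_of_notMem he, hc.card_support, Finset.card_univ]; omega)
  have hab : a ≠ b := fun h => hb' (by simp [h])
  have had : a ≠ d := fun h => hd' (by simp [h])
  have hbd : b ≠ d := fun h => hd' (by simp [h])
  have hef : e ≠ f := fun h => hf (by simp [h])
  have ne1 : ∀ {x y}, x ∈ c.support → y ∉ c.support → x ≠ y := fun hx hy e => hy (e ▸ hx)
  have hf' : f ∉ c.support := fun h => hf (Finset.mem_insert_of_mem h)
  have hd1 : Disjoint ({a, b} : Finset α) {e, f} := by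
    simp [ne1 ha he, ne1 ha hf', ne1 hb he, ne1 hb hf', Ne.symm (ne1 ha he), Ne.symm (ne1 ha hf'),
      Ne.symm (ne1 hb he), Ne.symm (ne1 hb hf')]
  have hd2 : Disjoint ({a, d} : Finset α) {e, f} := by
    simp [ne1 ha he, ne1 ha hf', ne1 hd he, ne1 hd hf', Ne.symm (ne1 ha he), Ne.symm (ne1 ha hf'),
      Ne.symm (ne1 hd he), Ne.symm (ne1 hd hf')]
  have hX := (inv2_swap hab).mul (inv2_swap hef) hd1
  have hY := (inv2_swap had).mul (inv2_swap hef) hd2
  have h := good_of_pattern (a := swap a b * swap e f) (b := swap a d * swap e f) hX le_rfl (fun _ _ => rfl)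
    (by rw [sign_of_inv2 hX]; rfl) (by rw [hX.cycleType, hY.cycleType])
  have e1 : swap a b * swap e f * (swap a d * swap e f) = swap a b * swap a d := by
    have hc' : Commute (swap e f) (swap a d) :=
      (Perm.disjoint_iff_disjoint_support.2 (by rw [Perm.support_swap hef, Perm.support_swap had]; exact hd2.symm)).commute
    rw [mul_assoc, ← mul_assoc (swap e f), hc'.eq, mul_assoc (swap a d), swap_mul_self, mul_one]
  rw [e1] at h
  exact h.of_cycleType ((Perm.isThreeCycle_swap_mul_swap_same hab had hbd).cycleType.trans hc.cycleType.symm)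

theorem good_two_swaps {σ : Perm α} {a b c d : α} (hab : a ≠ b) (hac : a ≠ c) (had : a ≠ d) (hbc : b ≠ c)
    (hbd : b ≠ d) (hcd : c ≠ d) (h : σ.cycleType = {2, 2}) : Good σ := by
  have hX := (inv2_swap hac).mul (inv2_swap hbd) (by simp [hab, had, hbc.symm, hcd, hab.symm, had.symm, hbc, hcd.symm])
  have hY := (inv2_swap had).mul (inv2_swap hbc) (by simp [hab, hac, hbd.symm, hcd.symm, hab.symm, hac.symm, hbd, hcd])
  have hg := good_of_pattern (a := swap a c * swap b d) (b := swap a d * swap b c) hX le_rfl (fun _ _ => rfl)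
    (by rw [sign_of_inv2 hX]; rfl) (by rw [hX.cycleType, hY.cycleType])
  refine hg.of_cycleType ?_
  have e : swap a c * swap b d * (swap a d * swap b c) = swap a b * swap c d := by
    ext x
    simp only [Perm.mul_apply, swap_apply_def]
    split_ifs <;> simp_all
  rw [e, h, Perm.Disjoint.cycleType_mul, Perm.isSwap_iff_cycleType.1 ⟨a, b, hab, rfl⟩, Perm.isSwap_iff_cycleType.1 ⟨c, d, hcd, rfl⟩]
  · rfl
  · rw [Perm.disjoint_iff_disjoint_support, Perm.support_swap hab, Perm.support_swap hcd]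
    simp [hac, had, hbc, hbd, hac.symm, had.symm, hbc.symm, hbd.symm]

theorem exists_good (h5 : 5 ≤ Fintype.card α) (σ : Perm α) (hσ : σ ≠ 1) (hs : Perm.sign σ = 1) : Good σ := by
  by_cases hodd : ∃ c ∈ σ.cycleFactorsFinset, Odd c.support.card
  · obtain ⟨c, hc, hodd⟩ := hodd
    have hcyc := (Perm.mem_cycleFactorsFinset_iff.1 hc).1
    obtain ⟨h, t, hn, hf, hsupp, hlen⟩ := exists_list hcyc
    set r := σ * c⁻¹
    have hdis : Perm.Disjoint r c := Perm.disjoint_mul_inv_of_mem_cycleFactorsFinset hc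
    have hσe : r * c = σ := inv_mul_cancel_right σ c
    have hsc : Perm.sign c = 1 := by rw [hcyc.sign, hodd.neg_one_pow, neg_neg]
    have hsr : Perm.sign r = 1 := by
      have h := hs
      rwa [← hσe, map_mul, hsc, mul_one] at h
    obtain ⟨i, hr⟩ := balanced hsr
    obtain ⟨X, Y, j, k, hX, hY, hXY, -, htl, hjk⟩ := zig h t hn
    obtain ⟨o, ho⟩ := hodd
    obtain rfl : j = k := by omega
    have hdS : Disjoint r.support (h :: t).toFinset := hsupp ▸ Perm.disjoint_iff_disjoint_support.1 hdis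
    rcases Nat.even_or_odd (i + j) with he | hodd'
    · have hc2 := hcyc.two_le_card_support
      have hD := hr.mul ⟨X, Y, hX, hY, rfl⟩ hdS
      rw [← hXY, hf, hσe] at hD
      obtain ⟨w, hw⟩ := he
      exact good_even hD (by omega) ⟨w, hw⟩
    match t, hn, htl, hlen, hsupp, hdS with
    | [], _, _, hlen, _, _ => have := hcyc.two_le_card_support; simp at hlen; omega
    | [_], _, htl, _, _, _ => simp at htl; omega
    | u :: w :: t', hn, htl, hlen, hsupp, hdS =>
      have hn' : (w :: t').Nodup := (List.nodup_cons.1 (List.nodup_cons.1 hn).2).2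
      have hhu : h ≠ u := fun e => (List.nodup_cons.1 hn).1 (e ▸ List.mem_cons_self)
      have hh0 : h ∉ w :: t' := fun e => (List.nodup_cons.1 hn).1 (List.mem_cons_of_mem _ e)
      have hu0 : u ∉ w :: t' := (List.nodup_cons.1 (List.nodup_cons.1 hn).2).1
      obtain ⟨X0, Y0, a, b, hX0, hY0, hXY0, hp0, htl0, hab⟩ := zig w t' hn'
      simp only [List.length_cons] at htl hlen
      obtain rfl : a = b := by omega
      by_cases h0 : i + a = 0
      · have hr1 : r = 1 := eq_one_of_dec_zero (S := r.support) (by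
          rwa [show i = 0 by omega] at hr)
        refine good_threeCycle h5 ?_
        rw [← hσe, hr1, one_mul, ← card_support_eq_three_iff, ← hlen]
        omega
      obtain ⟨Xr, Yr, hXr, hYr, hre⟩ := hr
      set S0 := (w :: t').toFinset
      have hsub : S0 ⊆ (h :: u :: w :: t').toFinset := fun x hx => by simp [S0] at hx ⊢; tauto
      have hd0 : Disjoint r.support S0 := hdS.mono_right hsub
      obtain ⟨q, hq, hq'⟩ := Finset.exists_mem_notMem_of_card_lt_card (s := X0.support) (t := S0)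
        (by rw [hX0.2.2, List.toFinset_card_of_nodup hn']; simp; omega)
      have hXq : X0 q = q := Perm.notMem_support.1 hq'
      have hmem : ∀ x ∈ (h :: u :: w :: t').toFinset, x ∉ r.support := fun x hx h' =>
        Finset.disjoint_left.1 hdS h' hx
      have hq_r : q ∉ r.support := hmem q (hsub hq)
      have hpS : w ∈ S0 := by simp [S0]
      have hYq : Y0 q ∈ S0 := hY0.apply_mem hq
      have hgood := good_step (p := w) (q := q) (u := h) (v := u) (hXr.mul hX0 hd0) (hYr.mul hY0 hd0)
        (by obtain ⟨z, hz⟩ := hodd'; omega) (by obtain ⟨z, hz⟩ := hodd'; exact ⟨z, by omega⟩)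
        (by rw [Perm.mul_apply, hp0]; exact eq_of_not_mem hYr.2.1 (hmem w (by simp)))
        (by rw [Perm.mul_apply, hXq]; exact eq_of_not_mem hXr.2.1 hq_r)
        (Finset.mem_union_right _ hpS) (Finset.mem_union_right _ hq)
        (by simp only [Finset.mem_union, not_or]; exact ⟨hmem h (by simp), by simpa [S0] using hh0⟩)
        (by simp only [Finset.mem_union, not_or]; exact ⟨hmem u (by simp), by simpa [S0] using hu0⟩) hhu
      rw [Perm.mul_apply, eq_of_not_mem hYr.2.1 (hmem _ (hsub hYq))] at hgood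
      obtain ⟨l1, hn1, hl1, hs1, hf1⟩ := insert_point hn' (List.mem_toFinset.1 hYq) hh0
      obtain ⟨l2, hn2, hl2, hs2, hf2⟩ := insert_point hn1 (p := w) (v := u)
        (List.mem_toFinset.1 (hs1 ▸ Finset.mem_insert_of_mem hpS))
        (fun e => by
          have := hs1 ▸ List.mem_toFinset.2 e
          rcases Finset.mem_insert.1 this with e | e
          exacts [hhu e.symm, hu0 (List.mem_toFinset.1 e)])
      have e0 : Xr * X0 * (Yr * Y0) = r * (w :: t').formPerm := by
        rw [hre, hXY0]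
        have hc0 : Commute X0 Yr :=
          (Perm.disjoint_iff_disjoint_support.2 ((hd0.symm).mono hX0.2.1 hYr.2.1)).commute
        rw [mul_assoc Xr, ← mul_assoc X0, hc0.eq]
        simp only [mul_assoc]
      rw [e0, mul_assoc, ← mul_assoc (w :: t').formPerm, ← hf1, ← hf2] at hgood
      obtain ⟨hct, hsp⟩ := cycleType_list hn2 (by simp at hl1; omega)
      refine hgood.of_cycleType ?_
      rw [Perm.Disjoint.cycleType_mul, hct, ← hσe, hdis.cycleType_mul, hcyc.cycleType, ← hlen]
      · simp only [List.length_cons] at hl1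
        rw [hl2, hl1]
      · rw [Perm.disjoint_iff_disjoint_support, hsp, hs2, hs1]
        exact hdS.mono_right (by intro x hx; simp [S0] at hx ⊢; tauto)
  · push Not at hodd
    obtain ⟨c, hc⟩ := Finset.nonempty_iff_ne_empty.2 (fun e => hσ (Perm.cycleFactorsFinset_eq_empty_iff.1 e))
    have hcyc := (Perm.mem_cycleFactorsFinset_iff.1 hc).1
    set r1 := σ * c⁻¹
    have hdis1 : Perm.Disjoint r1 c := Perm.disjoint_mul_inv_of_mem_cycleFactorsFinset hc
    have hσe : r1 * c = σ := inv_mul_cancel_right σ c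
    obtain ⟨kc, hkc⟩ := Nat.not_odd_iff_even.1 (hodd c hc)
    have hsc : Perm.sign c = -1 := by
      rw [hcyc.sign, hkc, ← two_mul, pow_mul]; simp
    have hr1 : r1 ≠ 1 := fun e => by
      rw [← hσe, e, one_mul, hsc] at hs; simp at hs
    obtain ⟨d, hd⟩ := Finset.nonempty_iff_ne_empty.2 (fun e => hr1 (Perm.cycleFactorsFinset_eq_empty_iff.1 e))
    have hdσ : d ∈ σ.cycleFactorsFinset := by
      rw [← hσe, hdis1.cycleFactorsFinset_mul_eq_union]; exact Finset.mem_union_left _ hd
    have hdcyc := (Perm.mem_cycleFactorsFinset_iff.1 hd).1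
    set r := r1 * d⁻¹
    have hdis2 : Perm.Disjoint r d := Perm.disjoint_mul_inv_of_mem_cycleFactorsFinset hd
    have hre1 : r * d = r1 := inv_mul_cancel_right r1 d
    obtain ⟨kd, hkd⟩ := Nat.not_odd_iff_even.1 (hodd d hdσ)
    have hsd : Perm.sign d = -1 := by
      rw [hdcyc.sign, hkd, ← two_mul, pow_mul]; simp
    have hsr : Perm.sign r = 1 := by
      rw [← hσe, ← hre1, map_mul, map_mul, hsc, hsd] at hs; simpa using hs
    obtain ⟨i, hr⟩ := balanced hsr
    obtain ⟨v, tc, hnc, hfc, hsuc, hlc⟩ := exists_list hcyc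
    obtain ⟨u, td, hnd, hfd, hsud, hld⟩ := exists_list hdcyc
    have hdS1 : Disjoint r1.support (v :: tc).toFinset := hsuc ▸ Perm.disjoint_iff_disjoint_support.1 hdis1
    have hdS2 : Disjoint r.support (u :: td).toFinset := hsud ▸ Perm.disjoint_iff_disjoint_support.1 hdis2
    rw [← hre1, hdis2.support_mul, ← hsud, Finset.disjoint_union_left] at hdS1
    obtain ⟨hrc, hdc⟩ := hdS1
    obtain ⟨Xc, Yc, ic, jc, hXc, hYc, hXYc, -, htlc, hijc⟩ := zig v tc hnc
    obtain ⟨Xd, Yd, id', jd, hXd, hYd, hXYd, -, htld, hijd⟩ := zig u td hnd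
    obtain rfl : ic = jc + 1 := by omega
    obtain rfl : id' = jd + 1 := by omega
    rcases Nat.even_or_odd (i + (jd + 1) + jc) with he | hodd'
    · have hD := (hr.mul ⟨Xd, Yd, hXd, hYd, rfl⟩ hdS2).mul
        (Dec.flip ⟨Xc, Yc, hXc, hYc, rfl⟩) (Finset.disjoint_union_left.2 ⟨hrc, hdc⟩)
      rw [← hXYd, ← hXYc, hfc, hfd, hre1, hσe,
        show i + jd + (jc + 1) = i + (jd + 1) + jc by omega] at hD
      obtain ⟨z, hz⟩ := he
      exact good_even hD (by omega) ⟨z, hz⟩
    match tc, td, hnc, hnd, htlc, htld, hlc, hld, hsuc, hsud, hrc, hdc, hdS2 with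
    | [], _, _, _, htlc, _, _, _, _, _, _, _, _ => simp at htlc; omega
    | _ :: _, [], _, _, _, htld, _, _, _, _, _, _, _ => simp at htld; omega
    | p :: tc', q :: td', hnc, hnd, htlc, htld, hlc, hld, hsuc, hsud, hrc, hdc, hdS2 =>
      have hnc' := (List.nodup_cons.1 hnc).2
      have hnd' := (List.nodup_cons.1 hnd).2
      have hv0 : v ∉ p :: tc' := (List.nodup_cons.1 hnc).1
      have hu0 : u ∉ q :: td' := (List.nodup_cons.1 hnd).1
      obtain ⟨X1, Y1, a, a', hX1, hY1, hXY1, hp1, htl1, hij1⟩ := zig p tc' hnc'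
      obtain ⟨X2, Y2, b, b', hX2, hY2, hXY2, hq2, htl2, hij2⟩ := zig q td' hnd'
      simp only [List.length_cons] at htlc htld hlc hld
      obtain rfl : a = a' := by omega
      obtain rfl : b = b' := by omega
      by_cases h0 : i + b + a = 0
      · have hr' : r = 1 := eq_one_of_dec_zero (S := r.support) (by rwa [show i = 0 by omega] at hr)
        have hpv : v ≠ p := fun e => hv0 (e ▸ List.mem_cons_self)
        have hqu : u ≠ q := fun e => hu0 (e ▸ List.mem_cons_self)
        have hne : ∀ {x y}, x ∈ (u :: q :: td').toFinset → y ∈ (v :: p :: tc').toFinset → x ≠ y :=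
          fun hx hy e => Finset.disjoint_left.1 hdc hx (e ▸ hy)
        refine good_two_swaps (a := u) (b := q) (c := v) (d := p) hqu (hne (by simp) (by simp))
          (hne (by simp) (by simp)) (hne (by simp) (by simp)) (hne (by simp) (by simp)) hpv ?_
        rw [← hσe, hdis1.cycleType_mul, ← hre1, hr', one_mul, hdcyc.cycleType, hcyc.cycleType, ← hlc, ← hld]
        rw [show td'.length = 0 by omega, show tc'.length = 0 by omega]
        rfl
      obtain ⟨Xr, Yr, hXr, hYr, hre⟩ := hr
      set S1 := (p :: tc').toFinset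
      set S2 := (q :: td').toFinset
      have hs1 : S1 ⊆ (v :: p :: tc').toFinset := fun x hx => by simp [S1] at hx ⊢; tauto
      have hs2 : S2 ⊆ (u :: q :: td').toFinset := fun x hx => by simp [S2] at hx ⊢; tauto
      have d2 : Disjoint r.support S2 := hdS2.mono_right hs2
      have d1 : Disjoint (r.support ∪ S2) S1 :=
        Finset.disjoint_union_left.2 ⟨hrc.mono_right hs1, hdc.mono hs2 hs1⟩
      have hX2' : Inv2 Y2 S2 b := hY2
      have hY2' : Inv2 (Y2 * X2 * Y2) S2 b := hX2.conj hY2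
      have hX := (hXr.mul hX2' d2).mul hX1 d1
      have hY := (hYr.mul hY2' d2).mul hY1 d1
      have hpS : p ∈ S1 := by simp [S1]
      have hqS : q ∈ S2 := by simp [S2]
      have hrC : ∀ x ∈ (v :: p :: tc').toFinset, x ∉ r.support := fun x hx h => Finset.disjoint_left.1 hrc h hx
      have hrD : ∀ x ∈ (u :: q :: td').toFinset, x ∉ r.support := fun x hx h => Finset.disjoint_left.1 hdS2 h hx
      have hDC : ∀ x ∈ (u :: q :: td').toFinset, x ∉ (v :: p :: tc').toFinset := fun x hx =>
        Finset.disjoint_left.1 hdc hx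
      have hgood := good_step (p := p) (q := q) (u := u) (v := v) hX hY
        (by obtain ⟨z, hz⟩ := hodd'; omega) (by obtain ⟨z, hz⟩ := hodd'; exact ⟨z, by omega⟩)
        (by rw [Perm.mul_apply, hp1, Perm.mul_apply,
              eq_of_not_mem hY2'.2.1 (fun h => hDC p (hs2 h) (hs1 hpS))]
            exact eq_of_not_mem hYr.2.1 (hrC p (hs1 hpS)))
        (by rw [Perm.mul_apply, eq_of_not_mem hX1.2.1 (fun h => hDC q (hs2 hqS) (hs1 h)), Perm.mul_apply, hq2]
            exact eq_of_not_mem hXr.2.1 (hrD q (hs2 hqS)))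
        (Finset.mem_union_right _ hpS) (Finset.mem_union_left _ (Finset.mem_union_right _ hqS))
        (by simp only [Finset.mem_union, not_or]
            exact ⟨⟨hrD u (by simp), by simpa [S2] using hu0⟩, fun h => hDC u (by simp) (hs1 h)⟩)
        (by simp only [Finset.mem_union, not_or]
            exact ⟨⟨hrC v (by simp), fun h => hDC v (hs2 h) (by simp)⟩, by simpa [S1] using hv0⟩)
        (fun e => hDC u (by simp) (by simp [e]))
      set q' := (Yr * (Y2 * X2 * Y2) * Y1) q
      have hq' : q' ∈ S2 := by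
        have h1 : Y1 q = q := eq_of_not_mem hY1.2.1 (fun h => hDC q (hs2 hqS) (hs1 h))
        have h2 : (Y2 * X2 * Y2) q ∈ S2 := hY2'.apply_mem hqS
        show (Yr * (Y2 * X2 * Y2) * Y1) q ∈ S2
        rw [Perm.mul_apply, h1, Perm.mul_apply, eq_of_not_mem hYr.2.1 (hrD _ (hs2 h2))]
        exact h2
      obtain ⟨l2, hn2, hl2, hsl2, hf2⟩ := insert_point hnd' (p := q') (v := u) (List.mem_toFinset.1 hq') hu0
      obtain ⟨l1, hn1, hl1, hsl1, hf1⟩ := insert_point hnc' (p := p) (v := v) List.mem_cons_self hv0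
      have c1 : Commute Y2 Yr :=
        (Perm.disjoint_iff_disjoint_support.2 (d2.symm.mono hY2.2.1 hYr.2.1)).commute
      have c2 : Commute X1 (Yr * (Y2 * X2 * Y2)) :=
        (Perm.disjoint_iff_disjoint_support.2 (d1.symm.mono hX1.2.1 (hYr.mul hY2' d2).2.1)).commute
      have c3 : Commute (swap q' u) ((p :: tc').formPerm) := by
        refine (Perm.disjoint_iff_disjoint_support.2 ?_).commute
        have hne : q' ≠ u := fun e => hu0 (List.mem_toFinset.1 (e ▸ hq'))
        rw [Perm.support_swap hne, Finset.disjoint_left]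
        intro x hx hx'
        have hx'' := List.support_formPerm_le _ hx'
        rcases Finset.mem_insert.1 hx with rfl | hx
        · exact hDC _ (hs2 hq') (hs1 hx'')
        · exact hDC u (by simp) (hs1 (Finset.mem_singleton.1 hx ▸ hx''))
      have e0 : Xr * Y2 * X1 * (Yr * (Y2 * X2 * Y2) * Y1) = r * (q :: td').formPerm * (p :: tc').formPerm := by
        rw [hre, hXY1, hXY2]
        calc _ = Xr * Y2 * (X1 * (Yr * (Y2 * X2 * Y2))) * Y1 := by simp only [mul_assoc]
          _ = Xr * (Y2 * Yr) * (Y2 * X2 * Y2) * X1 * Y1 := by rw [c2.eq]; simp only [mul_assoc]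
          _ = Xr * Yr * (Y2 * Y2) * (X2 * Y2) * (X1 * Y1) := by rw [c1.eq]; simp only [mul_assoc]
          _ = _ := by rw [hY2.1, mul_one]
      have hgood' : Good (r * (l2.formPerm * l1.formPerm)) := by
        have e1 : r * (q :: td').formPerm * (p :: tc').formPerm * (swap q' u * swap p v) =
            r * (l2.formPerm * l1.formPerm) := by
          rw [hf1, hf2, mul_assoc, ← mul_assoc (p :: tc').formPerm, ← c3.eq]
          simp only [mul_assoc]
        rw [← e1, ← e0]
        exact hgood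
      obtain ⟨hct1, hsp1⟩ := cycleType_list hn1 (by simp only [List.length_cons] at hl1; omega)
      obtain ⟨hct2, hsp2⟩ := cycleType_list hn2 (by simp only [List.length_cons] at hl2; omega)
      refine hgood'.of_cycleType ?_
      have D21 : Perm.Disjoint l2.formPerm l1.formPerm := by
        rw [Perm.disjoint_iff_disjoint_support, hsp1, hsp2, hsl1, hsl2, ← List.toFinset_cons, ← List.toFinset_cons]
        exact hdc
      have Dr : Perm.Disjoint r (l2.formPerm * l1.formPerm) := by
        rw [Perm.disjoint_iff_disjoint_support, D21.support_mul, hsp1, hsp2, hsl1, hsl2, ← List.toFinset_cons,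
          ← List.toFinset_cons, Finset.disjoint_union_right]
        exact ⟨hdS2, hrc⟩
      rw [Dr.cycleType_mul, D21.cycleType_mul, hct1, hct2, ← hσe, hdis1.cycleType_mul, ← hre1,
        hdis2.cycleType_mul, hdcyc.cycleType, hcyc.cycleType, ← hlc, ← hld, hl1, hl2]
      simp only [List.length_cons]
      exact (add_assoc _ _ _).symm

end CfsgLib.AltDoubleCover
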