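import Cfsg.Agent.AltDoubleCover.Decomp
import Cfsg.Agent.FewRels.Carmichael
import Mathlib.GroupTheory.Abelianization.Defs

/-!
In a perfect central extension by two elements of an alternating group, the lifts of a double transposition
square to the central involution, and every element is a commutator.
-/

set_option autoImplicit false

namespace CfsgLib.AltDoubleCover

open Equiv
open scoped commutatorElement

variable {α : Type*} [DecidableEq α] [Fintype α]

/-- four distinct points -/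
def Quad (p q r s : α) : Prop := p ≠ q ∧ p ≠ r ∧ p ≠ s ∧ q ≠ r ∧ q ≠ s ∧ r ≠ s

theorem quad_swap_mem {p q r s : α} (h : Quad p q r s) : swap p q * swap r s ∈ alternatingGroup α := by
  obtain ⟨h1, -, -, -, -, h6⟩ := h
  rw [Perm.mem_alternatingGroup, map_mul, Perm.sign_swap h1, Perm.sign_swap h6]; rfl

theorem quad_cycleType {p q r s : α} (h : Quad p q r s) :
    (swap p q * swap r s).cycleType = {2, 2} := by
  obtain ⟨h1, h2, h3, h4, h5, h6⟩ := h
  rw [Perm.Disjoint.cycleType_mul, Perm.isSwap_iff_cycleType.1 ⟨p, q, h1, rfl⟩,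
    Perm.isSwap_iff_cycleType.1 ⟨r, s, h6, rfl⟩]
  · rfl
  · rw [Perm.disjoint_iff_disjoint_support, Perm.support_swap h1, Perm.support_swap h6]
    simp [h2, h3, h4, h5, h2.symm, h3.symm, h4.symm, h5.symm]

omit [Fintype α] in
theorem quad_mul {p q r s : α} (h : Quad p q r s) :
    swap p q * swap r s * (swap p r * swap q s) = swap p s * swap q r := by
  obtain ⟨h1, h2, h3, h4, h5, h6⟩ := h
  refine Equiv.ext fun x => ?_
  simp only [Perm.mul_apply, swap_apply_def]
  split_ifs <;> simp_all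

omit [Fintype α] in
theorem cyc_mul {a b i j : α} (hab : a ≠ b) (hai : a ≠ i) (hbi : b ≠ i) (haj : a ≠ j) (hbj : b ≠ j)
    (hij : i ≠ j) : FewRels.cyc a b i * FewRels.cyc a b j = swap a j * swap b i := by
  refine Equiv.ext fun x => ?_
  simp only [FewRels.cyc, Perm.mul_apply, swap_apply_def]
  split_ifs <;> simp_all

/-- A perfect extension of the alternating group by a central group of order two. -/
structure Cover (G : Type*) [Group G] (α : Type*) [DecidableEq α] [Fintype α] where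
  π : G →* Perm α
  range_eq : π.range = alternatingGroup α
  z : G
  central : ∀ x, x * z = z * x
  sq : z * z = 1
  ne : z ≠ 1
  map_z : π z = 1
  ker : ∀ x, π x = 1 → x = 1 ∨ x = z
  perfect : commutator G = ⊤

namespace Cover

variable {G : Type*} [Group G] (D : Cover G α)

theorem exists_lift {t : Perm α} (ht : t ∈ alternatingGroup α) : ∃ x, D.π x = t := by
  rw [← D.range_eq] at ht; exact ht

theorem sign_map (x : G) : Perm.sign (D.π x) = 1 := by
  have : D.π x ∈ D.π.range := ⟨x, rfl⟩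
  rw [D.range_eq] at this
  exact Perm.mem_alternatingGroup.1 this

theorem eq_or {x y : G} (h : D.π x = D.π y) : y = x ∨ y = x * D.z := by
  rcases D.ker (x⁻¹ * y) (by rw [map_mul, map_inv, h, inv_mul_cancel]) with e | e
  · exact Or.inl (inv_mul_eq_one.1 e).symm
  · exact Or.inr (by rw [← e, mul_inv_cancel_left])

theorem sq_eq {x y : G} (h : D.π x = D.π y) : y * y = x * x := by
  rcases D.eq_or h with rfl | rfl
  · rfl
  · rw [mul_assoc, ← mul_assoc D.z, ← D.central x, mul_assoc, D.sq, mul_one]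

theorem exists_lift_three {c : Perm α} (hc : c ^ 3 = 1) (hc' : c ∈ alternatingGroup α) :
    ∃ x, D.π x = c ∧ x ^ 3 = 1 := by
  obtain ⟨y, hy⟩ := D.exists_lift hc'
  refine ⟨y ^ 4, by rw [map_pow, hy, pow_succ, hc, one_mul], ?_⟩
  rw [← pow_mul, show 4 * 3 = 3 * 4 from rfl, pow_mul]
  rcases D.ker (y ^ 3) (by rw [map_pow, hy, hc]) with e | e
  · rw [e, one_pow]
  · rw [e, show 4 = 2 * 2 from rfl, pow_mul, pow_two D.z, D.sq, one_pow]

theorem exists_sq_eq (h5 : 5 ≤ Fintype.card α) :
    ∃ (p q r s : α) (w : G), Quad p q r s ∧ D.π w = swap p q * swap r s ∧ w * w = D.z := by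
  by_contra hno
  push Not at hno
  have hone : ∀ p q r s w, Quad p q r s → D.π w = swap p q * swap r s → w * w = 1 := by
    intro p q r s w hQ hw
    refine (D.ker (w * w) ?_).resolve_right (hno p q r s w hQ hw)
    have hc : Commute (swap p q) (swap r s) := by
      refine (Perm.disjoint_iff_disjoint_support.2 ?_).commute
      obtain ⟨h1, h2, h3, h4, h5, h6⟩ := hQ
      rw [Perm.support_swap h1, Perm.support_swap h6]
      simp [h2, h3, h4, h5, h2.symm, h3.symm, h4.symm, h5.symm]
    rw [map_mul, hw, mul_assoc, ← mul_assoc (swap r s), ← hc.eq, mul_assoc, swap_mul_self, mul_one,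
      swap_mul_self]
  obtain ⟨a, b, hab⟩ := Fintype.exists_pair_of_one_lt_card (show 1 < Fintype.card α by omega)
  choose x hx hx3 using fun i : {i : α // a ≠ i ∧ b ≠ i} =>
    D.exists_lift_three (FewRels.cyc_pow_three hab i.2.1 i.2.2) (FewRels.cyc_mem i.2.1 hab)
  set H := Subgroup.closure (Set.range x)
  have hrel : ∀ i j, i ≠ j → (x i * x j) ^ 2 = 1 := fun i j hij => by
    have hne : (i : α) ≠ j := fun e => hij (Subtype.ext e)
    rw [pow_two]
    exact hone a j b i _ ⟨j.2.1, hab, i.2.1, j.2.2.symm, hne.symm, i.2.2⟩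
      (by rw [map_mul, hx, hx, cyc_mul hab i.2.1 i.2.2 j.2.1 j.2.2 hne])
  let π' : H →* alternatingGroup α := (D.π.comp H.subtype).codRestrict (alternatingGroup α) fun g =>
    Perm.mem_alternatingGroup.2 (D.sign_map _)
  have hinj : Function.Injective π' := by
    refine FewRels.injective_of_carmichael hab π' (fun i => ⟨x i, Subgroup.subset_closure ⟨i, rfl⟩⟩)
      (fun i => hx i) (fun i => Subtype.ext (hx3 i)) (fun i j h => Subtype.ext (hrel i j h)) ?_
    refine (Subgroup.map_injective H.subtype_injective) ?_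
    rw [MonoidHom.map_closure, ← MonoidHom.range_eq_map, Subgroup.range_subtype, ← Set.range_comp]
    rfl
  have hcover : ∀ g : G, ∃ h ∈ H, D.π h = D.π g := fun g => by
    have hg : D.π g ∈ Subgroup.closure {t | ∃ i, a ≠ i ∧ b ≠ i ∧ t = FewRels.cyc a b i} := by
      rw [FewRels.closure_cyc hab]; exact Perm.mem_alternatingGroup.2 (D.sign_map g)
    refine ((Subgroup.closure_le (H.map D.π)).2 ?_) hg
    rintro _ ⟨i, hai, hbi, rfl⟩
    exact ⟨x ⟨i, hai, hbi⟩, Subgroup.subset_closure ⟨_, rfl⟩, hx _⟩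
  have hcomm : commutator G ≤ H := by
    rw [commutator_def, Subgroup.commutator_le]
    intro g _ g' _
    obtain ⟨h, hh, he⟩ := hcover g
    obtain ⟨h', hh', he'⟩ := hcover g'
    have hz1 : ∀ u w, (u * D.z) * w * (u * D.z)⁻¹ = u * w * u⁻¹ := fun u w => by
      rw [mul_assoc u D.z w, ← D.central w, mul_inv_rev]; group
    have key : ⁅g, g'⁆ = ⁅h, h'⁆ := by
      rw [commutatorElement_def, commutatorElement_def]
      rcases D.eq_or he with rfl | rfl <;> rcases D.eq_or he' with rfl | rfl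
      · rfl
      · rw [mul_inv_rev, ← mul_assoc g h' D.z, mul_assoc _ D.z, ← D.central g⁻¹]; group
      · rw [hz1]
      · rw [hz1, mul_inv_rev, ← mul_assoc h h' D.z, mul_assoc _ D.z, ← D.central h⁻¹]; group
    rw [key, commutatorElement_def]
    exact mul_mem (mul_mem (mul_mem hh hh') (inv_mem hh)) (inv_mem hh')
  rw [D.perfect] at hcomm
  have hzH : D.z ∈ H := hcomm (Subgroup.mem_top _)
  have : (⟨D.z, hzH⟩ : H) = 1 := hinj (by rw [map_one]; exact Subtype.ext D.map_z)
  exact D.ne (congrArg Subtype.val this)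

theorem sq_lift (h5 : 5 ≤ Fintype.card α) {p q r s : α} (hQ : Quad p q r s) {w : G}
    (hw : D.π w = swap p q * swap r s) : w * w = D.z := by
  obtain ⟨p0, q0, r0, s0, w0, hQ0, hw0, hz⟩ := D.exists_sq_eq h5
  obtain ⟨c, hc⟩ := isConj_iff.1 (Perm.isConj_iff_cycleType_eq.2 ((quad_cycleType hQ0).trans (quad_cycleType hQ).symm))
  obtain ⟨c', hc's, hc'⟩ : ∃ c' : Perm α, Perm.sign c' = 1 ∧
      c' * (swap p0 q0 * swap r0 s0) * c'⁻¹ = swap p q * swap r s := by
    rcases Int.units_eq_one_or (Perm.sign c) with h | h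
    · exact ⟨c, h, hc⟩
    refine ⟨c * swap p0 q0, by rw [map_mul, h, Perm.sign_swap hQ0.1]; rfl, ?_⟩
    have hcm : Commute (swap p0 q0) (swap r0 s0) := by
      refine (Perm.disjoint_iff_disjoint_support.2 ?_).commute
      obtain ⟨h1, h2, h3, h4, h5, h6⟩ := hQ0
      rw [Perm.support_swap h1, Perm.support_swap h6]
      simp [h2, h3, h4, h5, h2.symm, h3.symm, h4.symm, h5.symm]
    have := ((Commute.refl (swap p0 q0)).mul_right hcm).eq
    rw [mul_inv_rev, mul_assoc c, this, ← hc]
    group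
  obtain ⟨g, hg⟩ := D.exists_lift (Perm.mem_alternatingGroup.2 hc's)
  rw [D.sq_eq (x := g * w0 * g⁻¹) (y := w) (by rw [map_mul, map_mul, map_inv, hg, hw0, hc', hw]),
    show g * w0 * g⁻¹ * (g * w0 * g⁻¹) = g * (w0 * w0) * g⁻¹ by group, hz, D.central g, mul_inv_cancel_right]

/-- The commutator of two lifts of commuting double transpositions. -/
theorem comm_lift (h5 : 5 ≤ Fintype.card α) {p q r s : α} (hQ : Quad p q r s) {u v : G}
    (hu : D.π u = swap p q * swap r s) (hv : D.π v = swap p r * swap q s) : u * v * u⁻¹ * v⁻¹ = D.z := by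
  obtain ⟨h1, h2, h3, h4, h5', h6⟩ := hQ
  have hQv : Quad p r q s := ⟨h2, h1, h3, h4.symm, h6, h5'⟩
  have e1 := D.sq_lift h5 ⟨h1, h2, h3, h4, h5', h6⟩ hu
  have e2 := D.sq_lift h5 hQv hv
  have e3 : (u * v) * (u * v) = D.z := D.sq_lift h5 (p := p) (q := s) (r := q) (s := r)
    ⟨h3, h1, h2, h5'.symm, h6.symm, h4⟩
    (by rw [map_mul, hu, hv, quad_mul ⟨h1, h2, h3, h4, h5', h6⟩])
  have hzi : D.z⁻¹ = D.z := inv_eq_of_mul_eq_one_right D.sq
  calc u * v * u⁻¹ * v⁻¹ = (u * v) * (u * v) * (v⁻¹ * (u * u)⁻¹ * v⁻¹) := by group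
    _ = D.z * (v⁻¹ * D.z * v⁻¹) := by rw [e1, e3, hzi]
    _ = D.z * (D.z * (v * v)⁻¹) := by rw [D.central v⁻¹]; group
    _ = D.z := by rw [e2, mul_inv_cancel, mul_one]

/-- A lift of any even permutation interchanging two pairs anticommutes with a double transposition. -/
theorem comm_pattern (h5 : 5 ≤ Fintype.card α) {p q r s : α} (hQ : Quad p q r s) {a v : G}
    (hv : D.π v = swap p r * swap q s)
    (e1 : D.π a p = q) (e2 : D.π a q = p) (e3 : D.π a r = s) (e4 : D.π a s = r) :
    a * v * a⁻¹ * v⁻¹ = D.z := by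
  obtain ⟨u, hu⟩ := D.exists_lift (quad_swap_mem hQ)
  have hcv : Commute (u⁻¹ * a) v := by
    obtain ⟨h1, h2, h3, h4, h5', h6⟩ := hQ
    set P := (Finset.univ \ {p, q, r, s} : Finset α)
    have hsub : (alternatingGroup P) ≤
        ((Subgroup.centralizer {v}).map D.π).comap (Perm.ofSubtype (p := (· ∈ P))) := by
      rw [← Perm.closure_three_cycles_eq_alternating, Subgroup.closure_le]
      intro c hc
      have hd3 : (Perm.ofSubtype c : Perm α) ^ 3 = 1 := by
        rw [← map_pow, show c ^ 3 = 1 by rw [← hc.orderOf]; exact pow_orderOf_eq_one c, map_one]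
      obtain ⟨x, hx, hx3⟩ := D.exists_lift_three hd3
        (Perm.mem_alternatingGroup.2 (by rw [Perm.sign_ofSubtype]; exact hc.sign))
      refine ⟨x, ?_, hx⟩
      rw [SetLike.mem_coe, Subgroup.mem_centralizer_singleton_iff]
      have hdis : Perm.Disjoint (Perm.ofSubtype c : Perm α) (D.π v) := fun y => by
        by_cases hy : y ∈ P
        · simp only [P, Finset.mem_sdiff, Finset.mem_insert, Finset.mem_singleton, not_or] at hy
          obtain ⟨-, y1, y2, y3, y4⟩ := hy
          exact Or.inr (by rw [hv, Perm.mul_apply, swap_apply_of_ne_of_ne y2 y4, swap_apply_of_ne_of_ne y1 y3])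
        · exact Or.inl (Perm.ofSubtype_apply_of_not_mem c hy)
      rcases D.eq_or (x := v * x) (y := x * v) (by rw [map_mul, map_mul, hx, hdis.commute.eq]) with e | e
      · exact e
      · exfalso
        have h1 : x * v * x⁻¹ = v * D.z := by
          rw [e, mul_assoc _ D.z, ← D.central x⁻¹]; group
        have h2 : x * (v * D.z) * x⁻¹ = v := by
          rw [show x * (v * D.z) * x⁻¹ = x * v * (D.z * x⁻¹) by group, ← D.central x⁻¹, ← mul_assoc, h1, mul_assoc,
            D.sq, mul_one]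
        have h3' : v = v * D.z :=
          calc v = x ^ 3 * v * (x ^ 3)⁻¹ := by rw [hx3]; group
            _ = x * (x * (x * v * x⁻¹) * x⁻¹) * x⁻¹ := by rw [pow_succ, pow_two]; group
            _ = v * D.z := by rw [h1, h2, h1]
        exact D.ne (left_eq_mul.1 h3')
    have hfix : ∀ y, y ∉ P → D.π (u⁻¹ * a) y = y := by
      intro y hy
      rw [map_mul, map_inv, Perm.mul_apply, Perm.inv_eq_iff_eq, hu, Perm.mul_apply]
      simp only [P, Finset.mem_sdiff, Finset.mem_univ, true_and, not_not, Finset.mem_insert,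
        Finset.mem_singleton] at hy
      rcases hy with rfl | rfl | rfl | rfl
      · rw [e1, swap_apply_of_ne_of_ne h2 h3, swap_apply_left]
      · rw [e2, swap_apply_of_ne_of_ne h4 h5', swap_apply_right]
      · rw [e3, swap_apply_left, swap_apply_of_ne_of_ne h3.symm h5'.symm]
      · rw [e4, swap_apply_right, swap_apply_of_ne_of_ne h2.symm h4.symm]
    set τ := D.π (u⁻¹ * a) with hτ
    have hh2 : ∀ y, τ y ≠ y → y ∈ P := fun y hy => by_contra fun h => hy (hfix y h)
    have hh1 : ∀ y, τ y ∈ P ↔ y ∈ P := fun y => by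
      constructor
      · intro h
        by_contra hy
        rw [hfix y hy] at h
        exact hy h
      · intro h
        by_contra hy
        have := τ.injective (hfix _ hy)
        rw [this] at hy
        exact hy h
    have e := Perm.ofSubtype_subtypePerm hh1 hh2
    obtain ⟨x, hx, hxe⟩ := hsub (show τ.subtypePerm hh1 ∈ alternatingGroup P by
      rw [Perm.mem_alternatingGroup, ← Perm.sign_ofSubtype, e]; exact D.sign_map _)
    rw [e] at hxe
    rw [SetLike.mem_coe, Subgroup.mem_centralizer_singleton_iff] at hx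
    rcases D.eq_or hxe with h | h
    · rw [h]; exact hx
    · rw [h]; exact Commute.mul_left hx (D.central v).symm
  calc a * v * a⁻¹ * v⁻¹ = u * ((u⁻¹ * a) * v * (u⁻¹ * a)⁻¹) * u⁻¹ * v⁻¹ := by group
    _ = u * v * u⁻¹ * v⁻¹ := by rw [hcv.eq, mul_inv_cancel_right]
    _ = D.z := D.comm_lift h5 hQ hu hv

include D in
theorem exists_commutator (h5 : 5 ≤ Fintype.card α) (g : G) : ∃ a b, a * b * a⁻¹ * b⁻¹ = g := by
  by_cases hσ : D.π g = 1
  · rcases D.ker g hσ with rfl | rfl
    · exact ⟨1, 1, by simp⟩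
    obtain ⟨p, q, r, s, w, hQ, hw, -⟩ := D.exists_sq_eq h5
    obtain ⟨v, hv⟩ := D.exists_lift (quad_swap_mem (p := p) (q := r) (r := q) (s := s)
      ⟨hQ.2.1, hQ.1, hQ.2.2.1, hQ.2.2.2.1.symm, hQ.2.2.2.2.2, hQ.2.2.2.2.1⟩)
    exact ⟨w, v, D.comm_lift h5 hQ hw hv⟩
  obtain ⟨a, c, ha, hc, he, p, q, r, s, h1, h2, h3, h4, h5', h6, f1, f2, f3, f4⟩ :=
    exists_good h5 (D.π g) hσ (D.sign_map g)
  obtain ⟨a', ha'⟩ := D.exists_lift (Perm.mem_alternatingGroup.2 ha)
  obtain ⟨c', hc'⟩ := D.exists_lift (Perm.mem_alternatingGroup.2 hc)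
  rcases D.eq_or (x := a' * c' * a'⁻¹ * c'⁻¹) (y := g) (by simp only [map_mul, map_inv, ha', hc', he]) with h | h
  · exact ⟨a', c', h.symm⟩
  obtain ⟨v, hv⟩ := D.exists_lift (quad_swap_mem (p := p) (q := r) (r := q) (s := s) ⟨h2, h1, h3, h4.symm, h6, h5'⟩)
  refine ⟨a', c' * v, ?_⟩
  have := D.comm_pattern h5 (a := a') ⟨h1, h2, h3, h4, h5', h6⟩ hv (by rw [ha', f1]) (by rw [ha', f2])
    (by rw [ha', f3]) (by rw [ha', f4])
  calc a' * (c' * v) * a'⁻¹ * (c' * v)⁻¹ = a' * c' * a'⁻¹ * (a' * v * a'⁻¹ * v⁻¹) * c'⁻¹ := by group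
    _ = g := by rw [this, h, mul_assoc _ D.z, ← D.central c'⁻¹]; simp only [mul_assoc]

end Cover

end CfsgLib.AltDoubleCover
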